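import Cfsg.Agent.Lib.Helper43.PO.GF7
import Cfsg.Agent.Lib.Helper80.SubF6

set_option autoImplicit false
set_option linter.unusedSectionVars false

/-!
Local balance for the minus type orthogonal groups: definitions.
-/

namespace Cfsg.Agent.Lib.Helper43.LB

open Matrix QuadraticMap Module Cfsg.Agent.Lib.Helper13.OOut Cfsg.Agent.Lib.Helper43.PA
  Cfsg.Agent.Lib.Helper43.PO Cfsg.Agent.Lib.Helper44 Cfsg.Agent.Lib.Helper80.LocBal

universe u

/-- every subgroup of odd order of the centralizer of `x` in the full automorphism group which is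
normalized by the fixed points of `x` (as inner automorphisms) is trivial. -/
def NoCore {K : Type*} [Group K] (x : MulAut K) : Prop :=
  ∀ N : Subgroup (MulAut K), Odd (Nat.card ↥N) → (∀ n ∈ N, n * x = x * n) →
    (∀ k : K, x k = k → ∀ n ∈ N, MulAut.conj k * n * (MulAut.conj k)⁻¹ ∈ N) → N = ⊥

variable {F : Type u} [Field F]

/-- the quadratic extension `F(√τ)`. -/
abbrev QE (F : Type u) [Field F] (τ : F) : Type u := QuadraticAlgebra F τ 0

variable {ι : Type} [Fintype ι] [DecidableEq ι]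

/-- coordinates: `(v, w) ↦ v + ω w`. -/
def vecE (τ : F) (ι : Type) : (ι ⊕ ι → F) ≃ₗ[F] (ι → QE F τ) where
  toFun v i := ⟨v (Sum.inl i), v (Sum.inr i)⟩
  invFun w := Sum.elim (fun i => (w i).re) (fun i => (w i).im)
  map_add' _ _ := rfl
  map_smul' _ _ := rfl
  left_inv v := by
    funext k
    rcases k with i | i <;> rfl
  right_inv _ := rfl

lemma vecE_apply (τ : F) (v : ι ⊕ ι → F) (i : ι) :
    vecE τ ι v i = ⟨v (Sum.inl i), v (Sum.inr i)⟩ := rfl

/-- the `F`-quadratic form `re ∘ Q'` on `ι ⊕ ι → F`. -/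
noncomputable def reQF {τ : F} (Q' : QuadraticForm (QE F τ) (ι → QE F τ)) :
    QuadraticForm F (ι ⊕ ι → F) :=
  ((QuadraticAlgebra.reₗ τ 0).compQuadraticMap (Q'.restrictScalars (S := F))).comp
    (vecE τ ι).toLinearMap

lemma reQF_apply {τ : F} (Q' : QuadraticForm (QE F τ) (ι → QE F τ)) (v : ι ⊕ ι → F) :
    reQF Q' v = (Q' (vecE τ ι v)).re := rfl

/-- the matrix of multiplication by `ω`. -/
def omegaMat (τ : F) (ι : Type) [DecidableEq ι] : Matrix (ι ⊕ ι) (ι ⊕ ι) F :=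
  Matrix.fromBlocks 0 (τ • (1 : Matrix ι ι F)) 1 0

/-- the matrix `diag(1, -1)`. -/
def signMat (F : Type u) [Field F] (ι₁ ι₂ : Type) [DecidableEq ι₁] [DecidableEq ι₂] :
    Matrix (ι₁ ⊕ ι₂) (ι₁ ⊕ ι₂) F :=
  Matrix.fromBlocks 1 0 0 (-1)

end Cfsg.Agent.Lib.Helper43.LB
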