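import Cfsg.Agent.Lib.Helper43.LB.F0

set_option autoImplicit false
set_option linter.unusedSectionVars false

/-! Field case of the local balance row for the minus type groups: one definition. -/

namespace Cfsg.Agent.Lib.Helper43.LB

open Matrix QuadraticMap Module Cfsg.Agent.Lib.Helper13.OOut Cfsg.Agent.Lib.Helper43.PA
  Cfsg.Agent.Lib.Helper43.PO Cfsg.Agent.Lib.Helper44 Cfsg.Agent.Lib.Helper80.LocBal
  Cfsg.Agent.Lib.Helper80.SubF

universe u v

variable {F : Type u} [Field F] {ι : Type} [Fintype ι] [DecidableEq ι]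
variable {F₀ : Type v} [Field F₀] {i₀ : F₀ →+* F}
variable {Q : QuadraticForm F (ι → F)} {Q₀ : QuadraticForm F₀ (ι → F₀)}

/-- `y` commutes with the matrices of the subfield subgroup. -/
def CenS (h : IsRat i₀ Q Q₀) (y : ↥(Gam ⇑Q)) : Prop :=
  ∀ s : ↥(Cfsg.Omega F₀ ⇑Q₀),
    cAut (y : SG F ι) ((epsO h s : ↥(Cfsg.isometryGroup F ⇑Q)) : GL ι F)
      = ((epsO h s : ↥(Cfsg.isometryGroup F ⇑Q)) : GL ι F)

end Cfsg.Agent.Lib.Helper43.LB
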