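import Cfsg.Agent.Lib.Helper43.LB.Defs

set_option autoImplicit false
set_option linter.unusedSectionVars false

/-!
Minus type orthogonal groups: an automorphism of prime order which is not induced by a similarity
is a field automorphism (up to the choice of the form), and its order is odd.
-/

namespace Cfsg.Agent.Lib.Helper43.LB

open Matrix QuadraticMap Module Cfsg.Agent.Lib.Helper13.OOut Cfsg.Agent.Lib.Helper43.PA
  Cfsg.Agent.Lib.Helper43.PO Cfsg.Agent.Lib.Helper44 Cfsg.Agent.Lib.Helper80.LocBal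

universe u

variable {F : Type u} [Field F]

/-- a nondegenerate form `Σ xᵢyᵢ + z₁² + a z₁z₂ + b z₂²` which is not hyperbolic has anisotropic
binary part. -/
theorem aniso_of_not_plus {m : ℕ} {a b : F} (hnd : (polarBilin (minusQF m F a b)).Nondegenerate)
    (h : ¬ IsoM (minusQF m F a b) (plusQF (m + 1) F)) : Aniso a b := by
  intro z₁ z₂ hz
  by_contra hne
  have hz2 : z₂ ≠ 0 := by
    intro h0
    apply hne
    subst h0
    refine ⟨?_, rfl⟩
    have : z₁ ^ 2 = 0 := by linear_combination hz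
    exact pow_eq_zero_iff (two_ne_zero) |>.1 this
  set t := z₁ / z₂ with ht
  have hroot : t ^ 2 + a * t + b = 0 := by
    have : (t ^ 2 + a * t + b) * z₂ ^ 2 = 0 := by
      rw [ht]; field_simp; linear_combination hz
    rcases mul_eq_zero.1 this with h' | h'
    · exact h'
    · exact absurd (pow_eq_zero_iff (two_ne_zero) |>.1 h') hz2
  by_cases hθ : t = -a - t
  · -- degenerate
    set v : (Fin m ⊕ Fin m) ⊕ Fin 2 → F := Sum.elim 0 ![t, 1] with hv
    have hv0 : v = 0 := by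
      apply hnd.1
      intro w
      rw [polarBilin_apply_apply]
      unfold QuadraticMap.polar
      simp only [minusQF_apply, hv, Pi.add_apply, Sum.elim_inl, Sum.elim_inr, Pi.zero_apply,
        zero_add, zero_mul, Finset.sum_const_zero, Matrix.cons_val_zero, Matrix.cons_val_one]
      linear_combination (w (Sum.inr 0) - t * w (Sum.inr 1)) * hθ + 2 * w (Sum.inr 1) * hroot
    have := congrFun hv0 (Sum.inr 1)
    simp [hv] at this
  · apply h
    let Te := (minusT m t (-a - t)).linearEquivOfInjective (minusT_injective m hθ) (by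
      rw [Module.finrank_fintype_fun_eq_card, Module.finrank_fintype_fun_eq_card, minus_card,
        plus_card])
    have hTe : ∀ v, plusQF (m + 1) F (Te v) = minusQF m F a b v := by
      intro v
      rw [LinearMap.linearEquivOfInjective_apply]
      apply plusQF_minusT
      · ring
      · linear_combination -hroot
    refine ⟨LinearMap.toMatrix' Te.symm.toLinearMap, LinearMap.toMatrix' Te.toLinearMap, ?_, ?_, ?_⟩
    · rw [← LinearMap.toMatrix'_comp]
      simp
    · rw [← LinearMap.toMatrix'_comp]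
      simp
    · intro w
      rw [LinearMap.toMatrix'_mulVec, ← hTe]
      simp

/-- [F0] -/
theorem field_class [Fintype F] {m : ℕ} (hm : 3 ≤ m) {a b : F} (hab : Aniso a b)
    (y : ↥(Gam ⇑(minusQF m F a b)))
    (hσ : (y : SG F ((Fin m ⊕ Fin m) ⊕ Fin 2)).right ≠ 1) {p : ℕ} (hp : p.Prime)
    (hord : orderOf (Th ⇑(minusQF m F a b) y) = p) :
    FMgen ⇑(minusQF m F a b) (fun a' b' => ⇑(minusQF m F a' b')) (Th ⇑(minusQF m F a b) y) := by
  have hQ := minusQF_nondeg m F hab
  have hn := minus_hn m (by omega)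
  have hex := exists_ne_zero _ hQ hn
  obtain ⟨⟨g, σ⟩, hy⟩ := y
  change σ ≠ 1 at hσ
  have hy' : pr g σ ∈ Gam ⇑(minusQF m F a b) := hy
  have hpow : (Th ⇑(minusQF m F a b) ⟨pr g σ, hy'⟩) ^ p = 1 := hord ▸ pow_orderOf_eq_one _
  have hoσ : orderOf σ = p := by
    have h1 : σ ^ p = 1 := by
      have h3 := hpow
      rw [← map_pow, Th_eq_one_iff _ hQ hn, Subgroup.coe_pow, pr_pow] at h3
      exact h3.1
    rcases (Nat.dvd_prime hp).1 (orderOf_dvd_of_pow_eq_one h1) with h | h
    · exact absurd (orderOf_eq_one_iff.1 h) hσ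
    · exact h
  obtain ⟨v, hv⟩ := exists_norm_one _ hQ hn g σ hy' (by rw [hoσ]; exact hpow)
  have hy2 := pr_mem_of_simil (scG_mem (minusQF m F a b) v) hy'
  obtain ⟨Qt, hQt⟩ := exists_ratForm _ hex σ _ hy2 hv
  obtain ⟨h₀, ν, hth, hQ1⟩ := hQt.ex
  have hι := fixK_iff' σ
  have : Fintype (fixK σ) := Fintype.ofFinite _
  obtain ⟨Pt, hP⟩ := exists_desc hι Qt hQt.inv
  have hnotplus : ¬ IsoM Qt (plusQF (m + 1) F) := by
    intro h
    exact not_plus_minus hab ((hyp_sim_iff h₀ ν hQ1 (m + 1) (by omega)).1 h)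
  rcases dich Pt (hP.nondeg (hQt.nondeg hQ)) (minus_card m) with e | ⟨ζ₀, hζ, e⟩
  · exact absurd (IsoM.map hP (isRat_plus _ _) e) hnotplus
  · set i₀ := (fixK σ).subtype with hi₀
    have e' := IsoM.map hP (isRat_minus i₀ m 1 ζ₀) e
    obtain ⟨M₀, N₀, h1, h2, h3⟩ := e
    have hMN : M₀.map i₀ * N₀.map i₀ = 1 := by rw [← Matrix.map_mul, h1]; simp
    have hNM : N₀.map i₀ * M₀.map i₀ = 1 := by rw [← Matrix.map_mul, h2]; simp
    have hsp : ∀ w, Qt ((M₀.map i₀) *ᵥ w) = minusQF m F (i₀ 1) (i₀ ζ₀) w := by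
      have e : Qt.comp (Matrix.mulVecLin (M₀.map i₀)) = minusQF m F (i₀ 1) (i₀ ζ₀) := by
        apply quad_ext_rat i₀
        intro w
        show Qt ((M₀.map i₀) *ᵥ up i₀ w) = minusQF m F (i₀ 1) (i₀ ζ₀) (up i₀ w)
        rw [← up_mulVec', hP, h3, isRat_minus i₀ m 1 ζ₀]
      intro w
      exact congrArg (fun q : QuadraticForm F _ => q w) e
    let T : Tr (minusQF m F a b) (minusQF m F (i₀ 1) (i₀ ζ₀)) :=
      ⟨h₀.1 * M₀.map i₀, N₀.map i₀ * (h₀⁻¹ : GL _ F).1, by
        rw [Matrix.mul_assoc, ← Matrix.mul_assoc (M₀.map i₀), hMN, Matrix.one_mul, ← Units.val_mul,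
          mul_inv_cancel, Units.val_one], by
        rw [Matrix.mul_assoc, ← Matrix.mul_assoc (h₀⁻¹ : GL _ F).1, ← Units.val_mul,
          inv_mul_cancel, Units.val_one, Matrix.one_mul, hNM], ν⁻¹, by
        intro w
        rw [← hsp, hQ1, mulVec_mulVec, ← mul_assoc, ← Units.val_mul, inv_mul_cancel, Units.val_one,
          one_mul]⟩
    have hTM : (scG v * g).1 * T.M.map σ = T.M := by
      show (scG v * g).1 * (h₀.1 * M₀.map i₀).map σ = h₀.1 * M₀.map i₀
      have e1 : (M₀.map i₀).map σ = M₀.map i₀ := by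
        ext i j
        exact (hι _).2 ⟨_, rfl⟩
      have e2 : (scG v * g) * fieldGL σ h₀ = h₀ := by rw [hth, inv_mul_cancel_right]
      rw [Matrix.map_mul, e1, ← Matrix.mul_assoc, ← fieldGL_coe, ← Units.val_mul, e2]
    have hab' : Aniso (i₀ 1) (i₀ ζ₀) :=
      aniso_of_not_plus (T.nondeg hQ) (fun h => hnotplus (e'.trans h))
    have ha : σ (i₀ 1) = i₀ 1 := (hι _).2 ⟨_, rfl⟩
    have hb : σ (i₀ ζ₀) = i₀ ζ₀ := (hι _).2 ⟨_, rfl⟩
    have hL := T.Lam_field σ (inv_minus m σ ha hb) (scG v * g) hy2 hTM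
    rw [Th_scG_mul _ hQ hn v g σ hy'] at hL
    refine ⟨i₀ 1, i₀ ζ₀, T.Psi.symm, σ, hab', hσ, ha, hb, ?_⟩
    apply (isFieldAut_iff _ σ (inv_minus m σ ha hb) _).2
    show MulAut.congr T.Psi.symm (Th ⇑(minusQF m F a b) ⟨pr g σ, hy'⟩) = _
    rw [← hL]
    ext x
    simp [Tr.Lam, MulAut.congr]

/-- [F1] -/
theorem field_not_two [Fintype F] {m : ℕ} (hm : 3 ≤ m) {a b : F} (hab : Aniso a b)
    (x : MulAut (Cfsg.POmega F ⇑(minusQF m F a b)))
    (hx : FMgen ⇑(minusQF m F a b) (fun a' b' => ⇑(minusQF m F a' b')) x) : orderOf x ≠ 2 := by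
  intro h2
  obtain ⟨a', b', hab', σ, ha, hb, Λ, hσ, -, -, hΛx⟩ := minus_reduce hm hab x hx
  have hord : orderOf σ = 2 := by
    rw [← orderOf_Th_fG _ (minusQF_nondeg m F hab') (minus_hn m (by omega)) σ
      (inv_minus m σ ha hb), ← hΛx, MulEquiv.orderOf_eq, h2]
  have hι := fixK_iff' σ
  have : Fintype (fixK σ) := Fintype.ofFinite _
  have hfin : Finite (F ≃+* F) := Finite.of_injective (fun e => (e : F → F)) DFunLike.coe_injective
  have : Fintype (Subgroup.zpowers σ) := Fintype.ofFinite _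
  have h1 : finrank (fixK σ) F = 2 := by
    rw [← hord]
    unfold fixK
    rw [FixedPoints.finrank_eq_card, Fintype.card_eq_nat_card, Nat.card_zpowers]
  have hcard : Fintype.card F = Fintype.card (fixK σ) ^ 2 := by
    rw [Module.card_eq_pow_finrank (K := fixK σ) (V := F), h1]
  obtain ⟨a₀, rfl⟩ := (hι a').1 ha
  obtain ⟨b₀, rfl⟩ := (hι b').1 hb
  have hab₀ := aniso_desc a₀ b₀ hab'
  obtain ⟨θ, hθ⟩ := Cfsg.Agent.Lib.Helper45.exists_root_quadratic hcard (fixK σ).subtype a₀ b₀ (by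
    intro z hz
    have := hab₀ z 1 (by linear_combination hz)
    exact one_ne_zero this.2)
  have := hab' θ 1 (by linear_combination hθ)
  exact one_ne_zero this.2

end Cfsg.Agent.Lib.Helper43.LB
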