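import Cfsg.Agent.Lib.Helper43.LB.DefsF

set_option autoImplicit false
set_option linter.unusedSectionVars false

/-! Field case: rigidity of the subfield subgroup (copy of `Helper80.SubF2` with the strong
centralising hypothesis). -/

namespace Cfsg.Agent.Lib.Helper43.LB

open Matrix QuadraticMap Module Cfsg.Agent.Lib.Helper13.OOut Cfsg.Agent.Lib.Helper43.PA
  Cfsg.Agent.Lib.Helper43.PO Cfsg.Agent.Lib.Helper44 Cfsg.Agent.Lib.Helper80.LocBal
  Cfsg.Agent.Lib.Helper80.SubF

universe u v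

variable {F : Type u} [Field F] {ι : Type} [Fintype ι] [DecidableEq ι]
variable {F₀ : Type v} [Field F₀] {i₀ : F₀ →+* F}
variable {Q : QuadraticForm F (ι → F)} {Q₀ : QuadraticForm F₀ (ι → F₀)}

section

variable [Fintype F₀] (h : IsRat i₀ Q Q₀)
  (hQ : (polarBilin Q).Nondegenerate) (hQ₀ : (polarBilin Q₀).Nondegenerate)
  (hn : 5 ≤ Fintype.card ι) (y : ↥(Gam ⇑Q)) (hy : CenS h y)

include hQ₀ hn hy

lemma act_eichler_rat' (u v : ι → F₀) (hu : Q₀ u = 0) (huv : polar Q₀ u v = 0) (z : ι → F) :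
    act (y : SG F ι) (eichler Q (up i₀ u) (up i₀ v) (rat_zero h hu) (rat_polar_zero h huv) z)
      = eichler Q (up i₀ u) (up i₀ v) (rat_zero h hu) (rat_polar_zero h huv)
        (act (y : SG F ι) z) := by
  have h1 := hy ⟨eichlerElt Q₀ u v hu huv, eichlerElt_mem_Omega Q₀ hQ₀ hn u v hu huv⟩
  rw [epsO_coe] at h1
  simp only at h1
  rw [eps_eichler] at h1
  rw [← eichlerElt_mulVec, ← eichlerElt_mulVec, ← cAut_mulVec_act, h1]

include hQ

theorem act_singular_rat' {u : ι → F₀} (hu0 : u ≠ 0) (hu : Q₀ u = 0) :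
    ∃ c : F, act (y : SG F ι) (up i₀ u) = c • up i₀ u := by
  apply span_rat h hQ hQ₀ hn hu0 hu
  intro v huv
  rw [← act_eichler_rat' h hQ₀ hn y hy u v hu huv]
  congr 1
  rw [eichler_apply, polar_self, rat_zero h hu, polar_comm Q (up i₀ v), rat_polar_zero h huv]
  simp

lemma act_zero'' (x : SG F ι) : act x (0 : ι → F) = 0 := by
  have := act_smul x 0 (0 : ι → F)
  simpa using this

theorem right_fix' (t : F₀) : (y : SG F ι).right (i₀ t) = i₀ t := by
  have hfr : finrank F₀ (ι → F₀) = Fintype.card ι := by simp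
  obtain ⟨e, -, he0, he⟩ := exists_singular_of_finrank Q₀ ⊤ (by rw [finrank_top]; omega)
  obtain ⟨f, hf, hef⟩ := exists_hyp_partner hQ₀ he0 he
  have h3 := le_finrank_perp2 Q₀ e f
  obtain ⟨w, hw, hw0, hwQ⟩ := exists_singular_of_finrank Q₀ (perp2 Q₀ e f) (by omega)
  rw [mem_perp2] at hw
  have hind : ∀ a b : F, a • up i₀ e + b • up i₀ w = 0 → a = 0 ∧ b = 0 := by
    intro a b hab
    have h4 : polar Q (up i₀ f) (a • up i₀ e + b • up i₀ w) = a := by
      rw [polar_add_right, polar_smul_right, polar_smul_right, rat_polar_zero h hw.2,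
        IsRat.polar h, polar_comm Q₀ f e, hef]
      simp
    rw [hab] at h4
    have ha : a = 0 := by rw [← h4]; simp
    subst ha
    rw [zero_smul, zero_add] at hab
    exact ⟨rfl, (smul_eq_zero.1 hab).resolve_right (up_ne_zero hw0)⟩
  obtain ⟨c, hc⟩ := act_singular_rat' h hQ hQ₀ hn y hy he0 he
  obtain ⟨d, hd⟩ := act_singular_rat' h hQ hQ₀ hn y hy hw0 hwQ
  have key : ∀ t : F₀, (y : SG F ι).right (i₀ t) * d = c * i₀ t := by
    intro t
    have hs : Q₀ (e + t • w) = 0 := by
      rw [Q_add_smul, he, hwQ, hw.1]; ring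
    have hs0 : e + t • w ≠ 0 := by
      intro h'
      have h5 := congrArg (up i₀) h'
      rw [up_add, up_smul, up_zero] at h5
      have := (hind 1 (i₀ t) (by rw [one_smul]; exact h5)).1
      exact one_ne_zero this
    obtain ⟨μ, hμ⟩ := act_singular_rat' h hQ hQ₀ hn y hy hs0 hs
    rw [up_add, up_smul, act_add, act_smul, hc, hd, smul_add, smul_smul, smul_smul] at hμ
    have h5 : (c - μ) • up i₀ e + ((y : SG F ι).right (i₀ t) * d - μ * i₀ t) • up i₀ w = 0 := by
      rw [sub_smul, sub_smul]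
      have : c • up i₀ e - μ • up i₀ e + (((y : SG F ι).right (i₀ t) * d) • up i₀ w
            - (μ * i₀ t) • up i₀ w)
          = (c • up i₀ e + ((y : SG F ι).right (i₀ t) * d) • up i₀ w)
            - (μ • up i₀ e + (μ * i₀ t) • up i₀ w) := by abel
      rw [this, hμ, sub_self]
    obtain ⟨h6, h7⟩ := hind _ _ h5
    rw [sub_eq_zero] at h6 h7
    rw [h7, h6]
  have hcd : d = c := by
    have := key 1
    simpa using this
  have hc0 : c ≠ 0 := by
    rintro rfl
    rw [zero_smul] at hc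
    apply up_ne_zero (i₀ := i₀) he0
    have := act_inv_act (y : SG F ι) (up i₀ e)
    rw [hc] at this
    rw [← this]
    have := act_smul (y : SG F ι)⁻¹ 0 (0 : ι → F)
    simpa using this
  have := key t
  rw [hcd, mul_comm] at this
  exact mul_left_cancel₀ hc0 this

end

end Cfsg.Agent.Lib.Helper43.LB
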