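import Cfsg.Agent.Lib.Helper43.LB.DefsF
import Cfsg.Agent.Lib.Helper5.OmegaGen

set_option autoImplicit false
set_option linter.unusedSectionVars false

/-! Field case: a matrix fixing all rational singular points is a scalar. -/

namespace Cfsg.Agent.Lib.Helper43.LB

open Matrix QuadraticMap Module Cfsg.Agent.Lib.Helper13.OOut Cfsg.Agent.Lib.Helper43.PA
  Cfsg.Agent.Lib.Helper43.PO Cfsg.Agent.Lib.Helper44 Cfsg.Agent.Lib.Helper80.LocBal
  Cfsg.Agent.Lib.Helper80.SubF

universe u v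

variable {F : Type u} [Field F] {ι : Type} [Fintype ι] [DecidableEq ι]
variable {F₀ : Type v} [Field F₀] {i₀ : F₀ →+* F}
variable {Q : QuadraticForm F (ι → F)} {Q₀ : QuadraticForm F₀ (ι → F₀)}

/-- [FC] -/
theorem left_scalar_gen [Fintype F₀] (h : IsRat i₀ Q Q₀) (hQ₀ : (polarBilin Q₀).Nondegenerate)
    (hn : 5 ≤ Fintype.card ι) (g : Matrix ι ι F)
    (hg : ∀ u : ι → F₀, u ≠ 0 → Q₀ u = 0 → ∃ c : F, g *ᵥ up i₀ u = c • up i₀ u) :
    ∃ a : F, g = a • (1 : Matrix ι ι F) := by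
  have hfr : finrank F₀ (ι → F₀) = Fintype.card ι := by simp
  have orth : ∀ u w : ι → F₀, u ≠ 0 → w ≠ 0 → Q₀ u = 0 → Q₀ w = 0 → polar Q₀ u w = 0 →
      ∀ a b : F, g *ᵥ up i₀ u = a • up i₀ u → g *ᵥ up i₀ w = b • up i₀ w → a = b := by
    intro u w hu0 hw0 hu hw huw a b ha hb
    have hU := up_ne_zero (i₀ := i₀) hu0
    have hW := up_ne_zero (i₀ := i₀) hw0
    by_cases hdep : ∃ t : F, up i₀ w = t • up i₀ u
    · obtain ⟨t, ht⟩ := hdep
      rw [ht, mulVec_smul, ha, smul_smul, smul_smul] at hb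
      have ht0 : t ≠ 0 := by
        rintro rfl
        rw [zero_smul] at ht
        exact hW ht
      have h1 : (t * a - b * t) • up i₀ u = 0 := by rw [sub_smul, hb, sub_self]
      rcases smul_eq_zero.1 h1 with h' | h'
      · have h2 : t * (a - b) = 0 := by linear_combination h'
        rcases mul_eq_zero.1 h2 with h3 | h3
        · exact absurd h3 ht0
        · exact sub_eq_zero.1 h3
      · exact absurd h' hU
    · have hs : Q₀ (u + w) = 0 := by
        rw [QuadraticMap.map_add (⇑Q₀), hu, hw, huw]; simp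
      have hs0 : u + w ≠ 0 := by
        intro h'
        apply hdep
        refine ⟨-1, ?_⟩
        have h2 := congrArg (up i₀) h'
        rw [up_add, up_zero] at h2
        rw [neg_smul, one_smul]
        exact eq_neg_of_add_eq_zero_right h2
      obtain ⟨μ, hμ⟩ := hg _ hs0 hs
      rw [up_add, mulVec_add, ha, hb, smul_add] at hμ
      have h1 : (b - μ) • up i₀ w = (μ - a) • up i₀ u := by
        rw [sub_smul, sub_smul, sub_eq_sub_iff_add_eq_add, add_comm (b • up i₀ w), hμ, add_comm]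
      by_cases hbμ : b = μ
      · rw [hbμ, sub_self, zero_smul] at h1
        rcases smul_eq_zero.1 h1.symm with h' | h'
        · rw [hbμ]; exact (sub_eq_zero.1 h').symm
        · exact absurd h' hU
      · exfalso
        apply hdep
        refine ⟨(b - μ)⁻¹ * (μ - a), ?_⟩
        rw [mul_smul, ← h1, smul_smul, inv_mul_cancel₀ (sub_ne_zero.2 hbμ), one_smul]
  obtain ⟨e, -, he0, he⟩ := exists_singular_of_finrank Q₀ ⊤ (by rw [finrank_top]; omega)
  obtain ⟨c, hc⟩ := hg e he0 he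
  have h2 : ∀ u, Q₀ u = 0 → g *ᵥ up i₀ u = c • up i₀ u := by
    intro u hu
    by_cases hu0 : u = 0
    · subst hu0
      rw [up_zero]; simp
    obtain ⟨a, ha⟩ := hg u hu0 hu
    have h3 := le_finrank_perp2 Q₀ e u
    obtain ⟨w, hw, hw0, hwQ⟩ := exists_singular_of_finrank Q₀ (perp2 Q₀ e u) (by omega)
    rw [mem_perp2] at hw
    obtain ⟨b, hb⟩ := hg w hw0 hwQ
    have e1 := orth e w he0 hw0 he hwQ hw.1 c b hc hb
    have e2 := orth u w hu0 hw0 hu hwQ hw.2 a b ha hb
    rw [ha, e2, ← e1]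
  refine ⟨c, ?_⟩
  apply matrix_ext_single
  intro j
  rw [smul_mulVec, one_mulVec, ← up_single i₀]
  obtain ⟨s₁, s₂, s₃, hx, k1, k2, k3⟩ := Cfsg.Agent.Lib.Helper5.exists_three_singular hQ₀
    (by rw [hfr]; exact hn) (0 : ι → F₀) (x := Pi.single j 1) (by simp)
  rw [hx, up_add, up_add, mulVec_add, mulVec_add, h2 _ k1.1, h2 _ k2.1, h2 _ k3.1, smul_add,
    smul_add]

end Cfsg.Agent.Lib.Helper43.LB
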