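import Cfsg.Agent.Lib.Helper43.LB.DefsF
import Cfsg.Agent.Lib.Helper5.OmegaPerfect

set_option autoImplicit false
set_option linter.unusedSectionVars false

/-! `Ω` is perfect; centralising modulo the centre implies centralising. -/

namespace Cfsg.Agent.Lib.Helper43.LB

open Matrix QuadraticMap Module Cfsg.Agent.Lib.Helper13.OOut Cfsg.Agent.Lib.Helper43.PA
  Cfsg.Agent.Lib.Helper43.PO Cfsg.Agent.Lib.Helper44 Cfsg.Agent.Lib.Helper80.LocBal
  Cfsg.Agent.Lib.Helper80.SubF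

open scoped commutatorElement

universe u v

lemma commutator_eq_top_of_equiv {G H : Type*} [Group G] [Group H] (e : G ≃* H)
    (h : commutator H = ⊤) : commutator G = ⊤ := by
  have h1 : (commutator G).map e.toMonoidHom = commutator H := by
    rw [commutator_def, Subgroup.map_commutator, commutator_def,
      Subgroup.map_top_of_surjective _ e.surjective]
  apply Subgroup.map_injective (f := e.toMonoidHom) e.injective
  rw [h1, h, Subgroup.map_top_of_surjective _ e.surjective]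

variable {F : Type u} [Field F] {ι : Type} [Fintype ι] [DecidableEq ι]
variable {F₀ : Type v} [Field F₀] {i₀ : F₀ →+* F}
variable {Q : QuadraticForm F (ι → F)} {Q₀ : QuadraticForm F₀ (ι → F₀)}

/-- [FD] -/
theorem omega_perfect [Fintype F] (Q : QuadraticForm F (ι → F)) (hQ : (polarBilin Q).Nondegenerate)
    (hn : 5 ≤ Fintype.card ι) : commutator ↥(Cfsg.Omega F ⇑Q) = ⊤ :=
  commutator_eq_top_of_equiv (Cfsg.Agent.Lib.Helper5.commutatorEquiv (isoEquiv Q))
    (Cfsg.Agent.Lib.Helper5.commutator_commutator_eq_top hQ (by simpa using hn))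

lemma comm_central {G : Type*} [Group G] {a b z₁ z₂ : G} (h₁ : z₁ ∈ Subgroup.center G)
    (h₂ : z₂ ∈ Subgroup.center G) : ⁅a * z₁, b * z₂⁆ = ⁅a, b⁆ := by
  rw [Subgroup.mem_center_iff] at h₁ h₂
  rw [commutatorElement_def, commutatorElement_def, mul_inv_eq_iff_eq_mul, mul_inv_eq_iff_eq_mul]
  calc a * z₁ * (b * z₂) = a * (z₁ * b) * z₂ := by group
    _ = a * (b * z₁) * z₂ := by rw [h₁ b]
    _ = a * b * (z₁ * z₂) := by group
    _ = a * b * (z₂ * z₁) := by rw [h₂ z₁]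
    _ = a * b * a⁻¹ * (a * z₂) * z₁ := by group
    _ = a * b * a⁻¹ * (z₂ * a) * z₁ := by rw [h₂ a]
    _ = a * b * a⁻¹ * b⁻¹ * (b * z₂) * (a * z₁) := by group

/-- [FB] -/
theorem cenS_of_cen [Fintype F₀] (h : IsRat i₀ Q Q₀) (hQ₀ : (polarBilin Q₀).Nondegenerate)
    (hn : 5 ≤ Fintype.card ι) (y : ↥(Gam ⇑Q)) (hy : Cen h y) : CenS h y := by
  have key : ∀ s : ↥(Cfsg.Omega F₀ ⇑Q₀), ∃ z : ↥(Cfsg.Omega F ⇑Q),
      z ∈ Subgroup.center ↥(Cfsg.Omega F ⇑Q) ∧
      cAut (y : SG F ι) ((epsO h s : ↥(Cfsg.isometryGroup F ⇑Q)) : GL ι F)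
        = (((epsO h s * z : ↥(Cfsg.Omega F ⇑Q)) : ↥(Cfsg.isometryGroup F ⇑Q)) : GL ι F) := by
    intro s
    obtain ⟨t', ht'⟩ := exists_cAut_Omega ⇑Q y (epsO h s)
    have h3 : (QuotientGroup.mk t' : Cfsg.POmega F ⇑Q) = QuotientGroup.mk (epsO h s) := by
      rw [← Th_apply_mk _ y (epsO h s) t' ht']
      exact hy s
    refine ⟨(epsO h s)⁻¹ * t', QuotientGroup.eq.1 h3.symm, ?_⟩
    rw [mul_inv_cancel_left, ht']
  let S : Subgroup ↥(Cfsg.Omega F₀ ⇑Q₀) :=
    { carrier := {s | cAut (y : SG F ι) ((epsO h s : ↥(Cfsg.isometryGroup F ⇑Q)) : GL ι F)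
        = ((epsO h s : ↥(Cfsg.isometryGroup F ⇑Q)) : GL ι F)}
      mul_mem' := by
        intro s t hs ht
        simp only [Set.mem_ofPred_eq] at hs ht ⊢
        rw [map_mul (epsO h), Subgroup.coe_mul, Subgroup.coe_mul, map_mul, hs, ht]
      one_mem' := by
        simp only [Set.mem_ofPred_eq]
        rw [map_one (epsO h)]
        simp
      inv_mem' := by
        intro s hs
        simp only [Set.mem_ofPred_eq] at hs ⊢
        rw [map_inv (epsO h), Subgroup.coe_inv, Subgroup.coe_inv, map_inv, hs] }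
  have hS : S = ⊤ := by
    rw [eq_top_iff, ← omega_perfect Q₀ hQ₀ hn, commutator_def, Subgroup.commutator_le]
    intro s₁ _ s₂ _
    show cAut (y : SG F ι) ((epsO h ⁅s₁, s₂⁆ : ↥(Cfsg.isometryGroup F ⇑Q)) : GL ι F)
        = ((epsO h ⁅s₁, s₂⁆ : ↥(Cfsg.isometryGroup F ⇑Q)) : GL ι F)
    obtain ⟨z₁, hz₁, e₁⟩ := key s₁
    obtain ⟨z₂, hz₂, e₂⟩ := key s₂
    have c1 : ((epsO h ⁅s₁, s₂⁆ : ↥(Cfsg.isometryGroup F ⇑Q)) : GL ι F)
        = ⁅((epsO h s₁ : ↥(Cfsg.isometryGroup F ⇑Q)) : GL ι F),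
          ((epsO h s₂ : ↥(Cfsg.isometryGroup F ⇑Q)) : GL ι F)⁆ := by
      rw [map_commutatorElement (epsO h)]
      rfl
    rw [c1, map_commutatorElement, e₁, e₂]
    have c2 := comm_central (a := epsO h s₁) (b := epsO h s₂) hz₁ hz₂
    exact congrArg (fun t : ↥(Cfsg.Omega F ⇑Q) => ((t : ↥(Cfsg.isometryGroup F ⇑Q)) : GL ι F)) c2
  intro s
  have : s ∈ S := by rw [hS]; trivial
  exact this

end Cfsg.Agent.Lib.Helper43.LB
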