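import Cfsg.Agent.Lib.Helper43.LB.DefsF

set_option autoImplicit false
set_option linter.unusedSectionVars false

/-! Field case: the image of the subfield subgroup is simple. -/

namespace Cfsg.Agent.Lib.Helper43.LB

open Matrix QuadraticMap Module Cfsg.Agent.Lib.Helper13.OOut Cfsg.Agent.Lib.Helper43.PA
  Cfsg.Agent.Lib.Helper43.PO Cfsg.Agent.Lib.Helper44 Cfsg.Agent.Lib.Helper80.LocBal
  Cfsg.Agent.Lib.Helper80.SubF

universe u v

variable {F : Type u} [Field F] {ι : Type} [Fintype ι] [DecidableEq ι]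
variable {F₀ : Type v} [Field F₀] {i₀ : F₀ →+* F}
variable {Q : QuadraticForm F (ι → F)} {Q₀ : QuadraticForm F₀ (ι → F₀)}

/-- [FE] -/
theorem simple_E [Fintype F] [Fintype F₀] (h : IsRat i₀ Q Q₀) (hQ : (polarBilin Q).Nondegenerate)
    (hQ₀ : (polarBilin Q₀).Nondegenerate) (hn : 5 ≤ Fintype.card ι) :
    IsSimpleGroup ↥(fE h).range := by
  have m1 : ((1 : Matrix ι ι F₀).map i₀) = 1 := by simp
  have m2 : ((-1 : Matrix ι ι F₀).map i₀) = -1 := by
    ext i j
    by_cases hij : i = j <;> simp [hij]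
  have hker : (fE h).ker = Subgroup.center ↥(Cfsg.Omega F₀ ⇑Q₀) := by
    ext s
    rw [MonoidHom.mem_ker, fE_apply, QuotientGroup.eq_one_iff, mem_center_Omega_iff Q hQ hn,
      mem_center_Omega_iff Q₀ hQ₀ hn, epsO_coe, eps_coe, map_coe]
    constructor
    · rintro (e | e)
      · left
        apply Matrix.map_injective i₀.injective
        exact e.trans m1.symm
      · right
        apply Matrix.map_injective i₀.injective
        exact e.trans m2.symm
    · rintro (e | e)
      · left; rw [e, m1]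
      · right; rw [e, m2]
  have hs := Cfsg.Agent.Lib.Helper5.pOmega_isSimpleGroup Q₀ hQ₀ hn
  let e : ↥(fE h).range ≃* Cfsg.POmega F₀ ⇑Q₀ :=
    (QuotientGroup.quotientKerEquivRange (fE h)).symm.trans
      (QuotientGroup.quotientMulEquivOfEq hker)
  exact e.isSimpleGroup

end Cfsg.Agent.Lib.Helper43.LB
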