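import Cfsg.Agent.Lib.Helper43.LB.DefsF

set_option autoImplicit false
set_option linter.unusedSectionVars false

/-! Field case: the fixed points of a field automorphism of odd order are rational. -/

namespace Cfsg.Agent.Lib.Helper43.LB

open Matrix QuadraticMap Module Cfsg.Agent.Lib.Helper13.OOut Cfsg.Agent.Lib.Helper43.PA
  Cfsg.Agent.Lib.Helper43.PO Cfsg.Agent.Lib.Helper44 Cfsg.Agent.Lib.Helper80.LocBal
  Cfsg.Agent.Lib.Helper80.SubF

universe u v

variable {F : Type u} [Field F] {ι : Type} [Fintype ι] [DecidableEq ι]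
variable {F₀ : Type v} [Field F₀] {i₀ : F₀ →+* F}
variable {Q : QuadraticForm F (ι → F)} {Q₀ : QuadraticForm F₀ (ι → F₀)}

/-- [FF] -/
theorem exists_of_fixed' [Fintype F] (h : IsRat i₀ Q Q₀) (hQ : (polarBilin Q).Nondegenerate)
    (hn : 5 ≤ Fintype.card ι) (σ : F ≃+* F) (hι : ∀ x, σ x = x ↔ ∃ y, i₀ y = x)
    (hinv : Inv Q σ) (hodd : Odd (orderOf σ))
    (k : Cfsg.POmega F ⇑Q) (hk : Th ⇑Q (fG ⇑Q σ hinv) k = k) :
    ∃ (t : ↥(Cfsg.isometryGroup F₀ ⇑Q₀)) (ht : eps h t ∈ Cfsg.Omega F ⇑Q),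
      k = QuotientGroup.mk ⟨eps h t, ht⟩ := by
  induction k using QuotientGroup.induction_on with
  | H s =>
    obtain ⟨s', hs'⟩ := exists_cAut_Omega ⇑Q (fG _ σ hinv) s
    rw [Th_apply_mk _ _ s s' hs'] at hk
    have hz : s⁻¹ * s' ∈ Subgroup.center ↥(Cfsg.Omega F ⇑Q) := QuotientGroup.eq.1 hk.symm
    obtain ⟨z, hzdef⟩ : ∃ z, z = s⁻¹ * s' := ⟨_, rfl⟩
    rw [← hzdef] at hz
    have hs'z : s' = s * z := by rw [hzdef, mul_inv_cancel_left]
    rw [cAut_apply, fG_val, pr_left, pr_right, hs'z] at hs'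
    set S : GL ι F := ((s : ↥(Cfsg.isometryGroup F ⇑Q)) : GL ι F) with hS
    set Z : GL ι F := ((z : ↥(Cfsg.isometryGroup F ⇑Q)) : GL ι F) with hZ
    have h1 : fieldGL σ S = S * Z := by
      have : S * Z = 1 * fieldGL σ S * 1⁻¹ := hs'
      rw [this]; simp
    have hz2 := (mem_center_Omega_iff Q hQ hn z).1 hz
    have hzσ : ∀ τ : F ≃+* F, fieldGL τ Z = Z := by
      intro τ
      apply Units.ext
      rw [fieldGL_coe]
      rcases hz2 with e | e
      · rw [← hZ] at e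
        rw [e]
        ext i j
        by_cases hij : i = j <;> simp [Matrix.one_apply, hij]
      · rw [← hZ] at e
        rw [e]
        ext i j
        by_cases hij : i = j <;> simp [Matrix.one_apply, hij]
    have hzz : Z * Z = 1 := by
      apply Units.ext
      rw [Units.val_mul]
      rcases hz2 with e | e <;> rw [← hZ] at e <;> rw [e] <;> simp
    have iter : ∀ j : ℕ, fieldGL (σ ^ j) S = S * Z ^ j := by
      intro j
      induction j with
      | zero => simp [fieldGL_one']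
      | succ j ih =>
        rw [pow_succ, map_mul, MulAut.mul_apply, h1, map_mul, ih, hzσ, pow_succ, mul_assoc]
    have hZ1 : Z = 1 := by
      have h2 := iter (orderOf σ)
      rw [pow_orderOf_eq_one, fieldGL_one'] at h2
      obtain ⟨j, hj⟩ := hodd
      have h3 : Z ^ (orderOf σ) = Z := by
        rw [hj, pow_succ, pow_mul, pow_two, hzz, one_pow, one_mul]
      rw [h3] at h2
      exact (mul_eq_left.1 h2.symm)
    rw [hZ1, mul_one] at h1
    obtain ⟨g₀, hg₀⟩ := (exists_mapG_eq i₀ σ hι _).1 h1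
    have hg₀' : g₀ ∈ Cfsg.isometryGroup F₀ ⇑Q₀ :=
      (map_mem_iso h g₀).1 (by rw [hg₀]; exact s.1.2)
    have e2 : eps h ⟨g₀, hg₀'⟩ = s.1 := Subtype.ext hg₀
    refine ⟨⟨g₀, hg₀'⟩, by rw [e2]; exact s.2, ?_⟩
    congr 1
    exact Subtype.ext e2.symm

end Cfsg.Agent.Lib.Helper43.LB
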