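import Cfsg.Agent.Lib.Helper80.LocBal
import Cfsg.Agent.Lib.Helper23.Transport

set_option autoImplicit false
set_option linter.unusedSectionVars false

/-! Transport of the local balance statement along an isomorphism. -/

namespace Cfsg.Agent.Lib.Helper43.LB

open Cfsg.Agent.Lib.Helper80.LocBal

lemma core_bot_congr {G H : Type*} [Group G] [Group H] (e : G ≃* H) (p : ℕ) :
    Cfsg.pPrimeCore p G = ⊥ ↔ Cfsg.pPrimeCore p H = ⊥ := by
  rw [← Cfsg.Agent.Lib.Helper23.pPrimeCore_map p e,
    Subgroup.map_eq_bot_iff_of_injective _ e.injective]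

/-- [FH] -/
theorem core_congr {K K' : Type*} [Group K] [Group K'] (ψ : K ≃* K') (p : ℕ)
    (A : Subgroup (MulAut K)) (x : MulAut K) :
    (Cfsg.pPrimeCore p ↥(A ⊓ Subgroup.centralizer {x}) ≠ ⊥ ↔
      Cfsg.pPrimeCore p ↥(A.map (MulAut.congr ψ).toMonoidHom ⊓
        Subgroup.centralizer {MulAut.congr ψ x}) ≠ ⊥) ∧
    Nat.card ↥(Fx x) = Nat.card ↥(Fx (MulAut.congr ψ x)) := by
  constructor
  · have hmap : (A ⊓ Subgroup.centralizer {x}).map (MulAut.congr ψ).toMonoidHom =
        A.map (MulAut.congr ψ).toMonoidHom ⊓ Subgroup.centralizer {MulAut.congr ψ x} := by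
      ext z
      constructor
      · rintro ⟨w, ⟨hw1, hw2⟩, rfl⟩
        refine ⟨⟨w, hw1, rfl⟩, ?_⟩
        have hw2' := Subgroup.mem_centralizer_singleton_iff.1 hw2
        apply Subgroup.mem_centralizer_singleton_iff.2
        show MulAut.congr ψ w * MulAut.congr ψ x = MulAut.congr ψ x * MulAut.congr ψ w
        rw [← map_mul, ← map_mul, hw2']
      · rintro ⟨⟨w, hw1, rfl⟩, hw2⟩
        refine ⟨w, ⟨hw1, ?_⟩, rfl⟩
        have hw2' := Subgroup.mem_centralizer_singleton_iff.1 hw2
        apply Subgroup.mem_centralizer_singleton_iff.2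
        apply (MulAut.congr ψ).injective
        rw [map_mul, map_mul]
        exact hw2'
    let e : ↥(A ⊓ Subgroup.centralizer {x}) ≃* ↥(A.map (MulAut.congr ψ).toMonoidHom ⊓
        Subgroup.centralizer {MulAut.congr ψ x}) :=
      ((A ⊓ Subgroup.centralizer {x}).equivMapOfInjective (MulAut.congr ψ).toMonoidHom
        (MulAut.congr ψ).injective).trans (MulEquiv.subgroupCongr hmap)
    exact not_congr (core_bot_congr e p)
  · apply Nat.card_congr
    refine ⟨fun k => ⟨ψ k.1, ?_⟩, fun k => ⟨ψ.symm k.1, ?_⟩, ?_, ?_⟩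
    · have hk : x k.1 = k.1 := k.2
      show MulAut.congr ψ x (ψ k.1) = ψ k.1
      simp [MulAut.congr, hk]
    · have hk : MulAut.congr ψ x k.1 = k.1 := k.2
      show x (ψ.symm k.1) = ψ.symm k.1
      apply ψ.injective
      rw [ψ.apply_symm_apply]
      simpa [MulAut.congr] using hk
    · intro k; simp
    · intro k; simp

end Cfsg.Agent.Lib.Helper43.LB
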