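import Cfsg.Agent.Lib.Helper43.LB.FA
import Cfsg.Agent.Lib.Helper43.LB.FC
import Cfsg.Agent.Lib.Helper43.LB.FD
import Cfsg.Agent.Lib.Helper43.LB.FE
import Cfsg.Agent.Lib.Helper43.LB.FF
import Cfsg.Agent.Lib.Helper43.LB.FH

set_option autoImplicit false
set_option linter.unusedSectionVars false

/-! Local balance for the minus type orthogonal groups: the field case. -/

namespace Cfsg.Agent.Lib.Helper43.LB

open Matrix QuadraticMap Module Cfsg.Agent.Lib.Helper13.OOut Cfsg.Agent.Lib.Helper43.PA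
  Cfsg.Agent.Lib.Helper43.PO Cfsg.Agent.Lib.Helper44 Cfsg.Agent.Lib.Helper80.LocBal
  Cfsg.Agent.Lib.Helper80.SubF

open scoped commutatorElement

universe u v

variable {F : Type u} [Field F] {ι : Type} [Fintype ι] [DecidableEq ι]
variable {F₀ : Type v} [Field F₀] {i₀ : F₀ →+* F}
variable {Q : QuadraticForm F (ι → F)} {Q₀ : QuadraticForm F₀ (ι → F₀)}

/-! ## assembly -/

section

variable [Fintype F] [Fintype F₀] (h : IsRat i₀ Q Q₀) (hQ : (polarBilin Q).Nondegenerate)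
  (hQ₀ : (polarBilin Q₀).Nondegenerate) (hn : 5 ≤ Fintype.card ι) (σ : F ≃+* F)
  (hι : ∀ x, σ x = x ↔ ∃ y, i₀ y = x) (hinv : Inv Q σ)

include hι in
lemma phi_fE' (s : ↥(Cfsg.Omega F₀ ⇑Q₀)) : Th ⇑Q (fG ⇑Q σ hinv) (fE h s) = fE h s := by
  rw [fE_apply]
  apply Th_apply_mk
  rw [cAut_apply, fG_val, pr_left, pr_right, epsO_coe, eps_coe,
    (exists_mapG_eq i₀ σ hι _).2 ⟨_, rfl⟩]
  simp

include hQ hn hι in
lemma comm_Fx_le' (hodd : Odd (orderOf σ)) :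
    ⁅Fx (Th ⇑Q (fG ⇑Q σ hinv)), Fx (Th ⇑Q (fG ⇑Q σ hinv))⁆ ≤ (fE h).range := by
  rw [Subgroup.commutator_le]
  intro k₁ hk₁ k₂ hk₂
  obtain ⟨t₁, ht₁, rfl⟩ := exists_of_fixed' h hQ hn σ hι hinv hodd k₁ hk₁
  obtain ⟨t₂, ht₂, rfl⟩ := exists_of_fixed' h hQ hn σ hι hinv hodd k₂ hk₂
  refine ⟨⟨⁅t₁, t₂⁆, Subgroup.commutator_mem_commutator (Subgroup.mem_top _)
    (Subgroup.mem_top _)⟩, ?_⟩
  rw [fE_apply]
  have e : (⁅(QuotientGroup.mk ⟨eps h t₁, ht₁⟩ : Cfsg.POmega F ⇑Q),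
      (QuotientGroup.mk ⟨eps h t₂, ht₂⟩ : Cfsg.POmega F ⇑Q)⁆)
      = QuotientGroup.mk ⁅(⟨eps h t₁, ht₁⟩ : ↥(Cfsg.Omega F ⇑Q)), ⟨eps h t₂, ht₂⟩⁆ := rfl
  rw [e]
  congr 1
  apply Subtype.ext
  rw [epsO_coe]
  show eps h ⁅t₁, t₂⁆ = ⁅eps h t₁, eps h t₂⁆
  rw [map_commutatorElement]

include hQ hQ₀ hn hι in
lemma dvd_card_E' (hodd : Odd (orderOf σ)) {p : ℕ} [hp : Fact p.Prime] (hp2 : p ≠ 2)
    (hdvd : p ∣ Nat.card ↥(Fx (Th ⇑Q (fG ⇑Q σ hinv)))) : p ∣ Nat.card ↥(fE h).range := by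
  obtain ⟨k, hk⟩ := exists_prime_orderOf_dvd_card' p hdvd
  obtain ⟨t, ht, e⟩ := exists_of_fixed' h hQ hn σ hι hinv hodd (k : Cfsg.POmega F ⇑Q) k.2
  have hsq : (k : Cfsg.POmega F ⇑Q) * k ∈ (fE h).range := by
    refine ⟨⟨t * t, mul_self_mem_Omega Q₀ hQ₀ (Or.inr (by omega)) t⟩, ?_⟩
    rw [fE_apply, e]
    have e2 : ((QuotientGroup.mk ⟨eps h t, ht⟩ : Cfsg.POmega F ⇑Q)) * QuotientGroup.mk ⟨eps h t, ht⟩
        = QuotientGroup.mk ((⟨eps h t, ht⟩ : ↥(Cfsg.Omega F ⇑Q)) * ⟨eps h t, ht⟩) := rfl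
    rw [e2]
    congr 1
    apply Subtype.ext
    rw [epsO_coe]
    show eps h (t * t) = eps h t * eps h t
    rw [map_mul]
  have hpodd : Odd p := hp.out.odd_of_ne_two hp2
  obtain ⟨j, hj⟩ := hpodd
  have hko : orderOf (k : Cfsg.POmega F ⇑Q) = p := by rw [Subgroup.orderOf_coe, hk]
  have hkE : (k : Cfsg.POmega F ⇑Q) ∈ (fE h).range := by
    have e3 : (k : Cfsg.POmega F ⇑Q) = ((k : Cfsg.POmega F ⇑Q) * k) ^ (j + 1) := by
      rw [← pow_two, ← pow_mul]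
      have : 2 * (j + 1) = p + 1 := by omega
      rw [this, pow_succ, ← hko, pow_orderOf_eq_one, one_mul]
    rw [e3]
    exact pow_mem hsq _
  have := orderOf_dvd_natCard (⟨(k : Cfsg.POmega F ⇑Q), hkE⟩ : ↥(fE h).range)
  rwa [Subgroup.orderOf_mk, hko] at this

include hQ₀ hn in
lemma perf_E' : (fE h).range ≤ ⁅(fE h).range, (fE h).range⁆ := by
  rw [MonoidHom.range_eq_map, ← Subgroup.map_commutator, ← commutator_def,
    omega_perfect Q₀ hQ₀ hn]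

include hQ hQ₀ hn hι in
lemma cent_E' (hsurj : Function.Surjective (Th ⇑Q)) (a : MulAut (Cfsg.POmega F ⇑Q))
    (ha : ∀ e ∈ (fE h).range, a e = e) : a ∈ Subgroup.zpowers (Th ⇑Q (fG ⇑Q σ hinv)) := by
  obtain ⟨y, rfl⟩ := hsurj a
  have hy : CenS h y := cenS_of_cen h hQ₀ hn y (fun s => ha _ ⟨s, rfl⟩)
  have hfin : Finite (F ≃+* F) := Finite.of_injective (fun e => (e : F → F)) DFunLike.coe_injective
  have hτ : (y : SG F ι).right ∈ Subgroup.zpowers σ := by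
    apply mem_zpowers_of_fix
    intro x hx
    obtain ⟨t, rfl⟩ := (hι x).1 hx
    exact right_fix' h hQ hQ₀ hn y hy t
  have hup : ∀ w : ι → F₀, act (y : SG F ι) (up i₀ w) = (y : SG F ι).left.1 *ᵥ up i₀ w := by
    intro w
    rw [act_def]
    congr 1
    funext i
    exact right_fix' h hQ hQ₀ hn y hy (w i)
  obtain ⟨c, hc⟩ := left_scalar_gen h hQ₀ hn (y : SG F ι).left.1 (by
    intro u hu0 hu
    rw [← hup]
    exact act_singular_rat' h hQ hQ₀ hn y hy hu0 hu)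
  obtain ⟨k, hk⟩ := (mem_powers_iff_mem_zpowers).2 hτ
  have hk' : σ ^ k = (y : SG F ι).right := hk
  refine Subgroup.mem_zpowers_iff.2 ⟨k, ?_⟩
  rw [zpow_natCast, ← map_pow]
  symm
  rw [← mul_inv_eq_one, ← map_inv, ← map_mul, Th_eq_one_iff Q hQ hn]
  have hne : Nonempty ι := by
    rw [← Fintype.card_pos_iff]; omega
  have r0 : ((fG ⇑Q σ hinv ^ k : ↥(Gam ⇑Q)) : SG F ι) = pr 1 (y : SG F ι).right := by
    rw [Subgroup.coe_pow, fG_val, pr_pow, nrmG_one, hk']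
  obtain ⟨u, hu⟩ := exists_scG_of_smul hc
  constructor
  · simp only [Subgroup.coe_mul, InvMemClass.coe_inv, SemidirectProduct.mul_right,
      SemidirectProduct.inv_right, r0, pr_right]
    exact mul_inv_cancel _
  · refine ⟨u, ?_⟩
    rw [← hu]
    simp only [Subgroup.coe_mul, InvMemClass.coe_inv, SemidirectProduct.mul_left,
      SemidirectProduct.inv_left, r0, pr_right, pr_left]
    simp

include h hQ hQ₀ hn hι in
theorem locbal_field_gen (hsurj : Function.Surjective (Th ⇑Q)) {p : ℕ} [hp : Fact p.Prime]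
    (hσ : orderOf σ = p) (hp2 : p ≠ 2) (A : Subgroup (MulAut (Cfsg.POmega F ⇑Q)))
    (hinn : ∀ k : Cfsg.POmega F ⇑Q, MulAut.conj k ∈ A) :
    Cfsg.pPrimeCore p ↥(A ⊓ Subgroup.centralizer {Th ⇑Q (fG ⇑Q σ hinv)}) ≠ ⊥ ↔
      Nat.Coprime p (Nat.card ↥(Fx (Th ⇑Q (fG ⇑Q σ hinv)))) := by
  have hodd : Odd (orderOf σ) := hσ ▸ hp.out.odd_of_ne_two hp2
  have hfinK : Finite (Cfsg.POmega F ⇑Q) := inferInstance
  have hphi : Th ⇑Q (fG ⇑Q σ hinv) ^ p = 1 := by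
    rw [← hσ, ← orderOf_Th_fG Q hQ hn σ hinv]
    exact pow_orderOf_eq_one _
  exact locbal (conj_injective Q hQ hn) A hinn _ hphi (fE h).range
    (by
      rintro _ ⟨s, rfl⟩
      exact phi_fE' h σ hι hinv s)
    (simple_E h hQ hQ₀ hn) (perf_E' h hQ₀ hn) (comm_Fx_le' h hQ hn σ hι hinv hodd)
    (dvd_card_E' h hQ hQ₀ hn σ hι hinv hodd hp2) (cent_E' h hQ hQ₀ hn σ hι hinv hsurj)

end

set_option maxHeartbeats 2000000 in
/-- the field case of the row. -/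
theorem field_case {F : Type u} [Field F] [Fintype F] {m : ℕ} (hm : 3 ≤ m) {a b : F}
    (hab : Aniso a b) (A : Subgroup (MulAut (Cfsg.POmega F ⇑(minusQF m F a b))))
    (hinn : ∀ k, MulAut.conj k ∈ A) {p : ℕ} [hp : Fact p.Prime]
    (y : ↥(Gam ⇑(minusQF m F a b))) (hσ : (y : SG F ((Fin m ⊕ Fin m) ⊕ Fin 2)).right ≠ 1)
    (hord : orderOf (Th ⇑(minusQF m F a b) y) = p) :
    FMgen ⇑(minusQF m F a b) (fun a' b' => ⇑(minusQF m F a' b')) (Th ⇑(minusQF m F a b) y) ∧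
    (Cfsg.pPrimeCore p ↥(A ⊓ Subgroup.centralizer {Th ⇑(minusQF m F a b) y}) ≠ ⊥ ↔
      Nat.Coprime p (Nat.card ↥(Fx (Th ⇑(minusQF m F a b) y)))) := by
  have hfm := field_class hm hab y hσ hp.out hord
  refine ⟨hfm, ?_⟩
  have hp2 : p ≠ 2 := hord ▸ field_not_two hm hab _ hfm
  obtain ⟨a', b', ψ, σ, hab', hσ1, ha, hb, hstd⟩ := hfm
  have hstd' : MulAut.congr ψ (Th ⇑(minusQF m F a b) y) =
      Th ⇑(minusQF m F a' b') (fG _ σ (inv_minus m σ ha hb)) :=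
    (isFieldAut_iff _ σ (inv_minus m σ ha hb) _).1 hstd
  obtain ⟨c1, c2⟩ := core_congr ψ p A (Th ⇑(minusQF m F a b) y)
  rw [c1, c2, hstd']
  have hQ' := minusQF_nondeg m F hab'
  have hn := minus_hn m (by omega)
  have hoσ : orderOf σ = p := by
    rw [← orderOf_Th_fG _ hQ' hn σ (inv_minus m σ ha hb), ← hstd', MulEquiv.orderOf_eq, hord]
  have hι := fixK_iff' σ
  have : Fintype (fixK σ) := Fintype.ofFinite _
  obtain ⟨a₀, rfl⟩ := (hι a').1 ha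
  obtain ⟨b₀, rfl⟩ := (hι b').1 hb
  have hab₀ := aniso_desc a₀ b₀ hab'
  have htop := Cfsg.Agent.Lib.Helper45.OAut.gamma_top_minus (F := F) hm _ _ hab'
  rw [← minusQF_coe] at htop
  exact locbal_field_gen (isRat_minus (fixK σ).subtype m a₀ b₀) hQ' (minusQF_nondeg m _ hab₀) hn σ hι
    (inv_minus m σ ha hb) (Th_surjective _ hQ' hn htop) hoσ hp2 _ (by
      intro k
      refine ⟨MulAut.conj (ψ.symm k), hinn _, ?_⟩
      ext z
      show ψ (ψ.symm k * ψ.symm z * (ψ.symm k)⁻¹) = k * z * k⁻¹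
      rw [map_mul, map_mul, map_inv, ψ.apply_symm_apply, ψ.apply_symm_apply])

end Cfsg.Agent.Lib.Helper43.LB
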